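import Cfsg.Agent.Lib.Helper93.ZS.TOT

set_option autoImplicit false

/-! Ladder ZS (S3430 + S4423), rung BIG. -/

namespace Cfsg.Agent.Lib.Helper93.ZS

theorem big_poly (h : ℕ) (hh : 27 ≤ h) :
    2 * (2 * h + 1) ^ 2 * (6 * (2 * h + 1) ^ 2 + 1) ≤ 2 ^ h := by
  induction h, hh using Nat.le_induction with
  | base => norm_num
  | succ k hk ih =>
    have h1 : 4 * (2 * (k + 1) + 1) ^ 2 ≤ 5 * (2 * k + 1) ^ 2 := by nlinarith
    set A := (2 * (k + 1) + 1) ^ 2 with hA
    set B := (2 * k + 1) ^ 2 with hB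
    have h2 : 2 * A * (6 * A + 1) ≤ 2 * (2 * B * (6 * B + 1)) := by nlinarith
    calc 2 * A * (6 * A + 1) ≤ 2 * (2 * B * (6 * B + 1)) := h2
      _ ≤ 2 * 2 ^ k := Nat.mul_le_mul_left _ ih
      _ = 2 ^ (k + 1) := by rw [pow_succ]; ring

/-- number of `k < K` coprime to `n` -/
def bigCnt (n : ℕ) : ℕ → ℕ
  | 0 => 0
  | k + 1 => bigCnt n k + (if Nat.gcd n k = 1 then 1 else 0)

theorem bigCnt_eq (n K : ℕ) : bigCnt n K = ((Finset.range K).filter n.Coprime).card := by
  induction K with
  | zero => simp [bigCnt]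
  | succ k ih =>
    rw [bigCnt, ih, Finset.range_add_one, Finset.filter_insert]
    by_cases h : Nat.gcd n k = 1
    · rw [if_pos h, if_pos (show n.Coprime k from h), Finset.card_insert_of_notMem (by simp)]
    · rw [if_neg h, if_neg (show ¬ n.Coprime k from h), add_zero]

theorem bigCnt_le {n K : ℕ} (h : K ≤ n) : bigCnt n K ≤ n.totient := by
  rw [bigCnt_eq, Nat.totient_eq_card_coprime]
  apply Finset.card_le_card
  apply Finset.filter_subset_filter
  exact Finset.range_subset_range.2 h

/-- bounded universal quantifier -/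
def bigAll : ℕ → (ℕ → Bool) → Bool
  | 0, _ => true
  | k + 1, f => f k && bigAll k f

theorem bigAll_sound {k : ℕ} {f : ℕ → Bool} (h : bigAll k f = true) : ∀ i < k, f i = true := by
  induction k with
  | zero => intro i hi; omega
  | succ k ih =>
    simp only [bigAll, Bool.and_eq_true] at h
    intro i hi
    rcases Nat.lt_succ_iff_lt_or_eq.1 hi with h1 | h1
    · exact ih h.2 i h1
    · rw [h1]; exact h.1

set_option maxRecDepth 100000 in
theorem big_tab1 : bigAll 5619 (fun n => Nat.ble n 260 || Nat.ble 54 (bigCnt n 260)) = true := by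
  decide +kernel

set_option maxRecDepth 100000 in
theorem big_tab2 : bigAll 261 (fun n => Nat.ble n 90 ||
    Nat.ble (n * (3 * n + 1)) (2 ^ (bigCnt n n / 2))) = true := by
  decide +kernel

theorem big {n : ℕ} (hn : 90 < n) : n * (3 * n + 1) ≤ 2 ^ (n.totient / 2) := by
  by_cases h54 : 54 ≤ n.totient
  · have h1 := tot n
    have h2 : 27 ≤ n.totient / 2 := by omega
    have h3 := big_poly _ h2
    have h4 : n.totient ≤ 2 * (n.totient / 2) + 1 := by omega
    have h5 : n ≤ 2 * (2 * (n.totient / 2) + 1) ^ 2 :=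
      h1.trans (Nat.mul_le_mul_left _ (Nat.pow_le_pow_left h4 2))
    refine le_trans ?_ h3
    apply Nat.mul_le_mul h5
    omega
  · have h1 := tot n
    have h2 : n.totient ^ 2 ≤ 53 ^ 2 := Nat.pow_le_pow_left (by omega) 2
    have h3 : n < 5619 := by omega
    rcases Nat.lt_or_ge 260 n with h4 | h4
    · exfalso
      have h5 := bigAll_sound big_tab1 n h3
      simp only [Bool.or_eq_true] at h5
      rcases h5 with h5 | h5
      · have := Nat.le_of_ble_eq_true h5
        omega
      · have h6 := Nat.le_of_ble_eq_true h5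
        exact h54 (h6.trans (bigCnt_le h4.le))
    · have h5 := bigAll_sound big_tab2 n (by omega)
      simp only [Bool.or_eq_true] at h5
      rcases h5 with h5 | h5
      · have := Nat.le_of_ble_eq_true h5
        omega
      · have h6 := Nat.le_of_ble_eq_true h5
        rwa [bigCnt_eq, ← Nat.totient_eq_card_coprime] at h6

end Cfsg.Agent.Lib.Helper93.ZS
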