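import Cfsg.Agent.Lib.Helper93.ZS.Defs

set_option autoImplicit false

/-! Ladder ZS (S3430 + S4423), rung BOX: the finitely many pairs not covered by the estimates. -/

namespace Cfsg.Agent.Lib.Helper93.ZS

/-- call by value for kernel evaluation -/
def boxForce {α : Type} (n : ℕ) (f : ℕ → α) : α := Nat.casesOn n (f 0) (fun k => f (Nat.succ k))

theorem boxForce_eq {α : Type} (n : ℕ) (f : ℕ → α) : boxForce n f = f n := by cases n <;> rfl

/-- bounded universal quantifier -/
def boxAll : ℕ → (ℕ → Bool) → Bool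
  | 0, _ => true
  | k + 1, f => f k && boxAll k f

theorem boxAll_sound {k : ℕ} {f : ℕ → Bool} (h : boxAll k f = true) : ∀ i < k, f i = true := by
  induction k with
  | zero => intro i hi; omega
  | succ k ih =>
    simp only [boxAll, Bool.and_eq_true] at h
    intro i hi
    rcases Nat.lt_succ_iff_lt_or_eq.1 hi with h1 | h1
    · exact ih h.2 i h1
    · rw [h1]; exact h.1

/-- remove from `m` the common factors with `g` -/
def boxStrip : ℕ → ℕ → ℕ → ℕ
  | 0, m, _ => m
  | f + 1, m, g => boxForce (Nat.gcd m g) fun d =>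
      if d ≤ 1 then m else boxForce (m / d) fun m' => boxStrip f m' g

/-- candidate for the primitive part -/
def boxPP (q : ℕ) : ℕ → ℕ → ℕ
  | 0, m => m
  | i + 1, m => boxForce (boxStrip 300 m (q ^ (i + 1) - 1)) fun m' => boxPP q i m'

/-- coprimality to `q ^ i - 1`, `1 ≤ i ≤ k` -/
def boxCop (q m : ℕ) : ℕ → Bool
  | 0 => true
  | i + 1 => Nat.beq (Nat.gcd m (q ^ (i + 1) - 1)) 1 && boxCop q m i

theorem boxCop_sound {q m k : ℕ} (h : boxCop q m k = true) :
    ∀ i, 1 ≤ i → i ≤ k → Nat.Coprime m (q ^ i - 1) := by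
  induction k with
  | zero => intro i h1 h2; omega
  | succ k ih =>
    simp only [boxCop, Bool.and_eq_true] at h
    intro i h1 h2
    rcases Nat.le_succ_iff.1 h2 with h3 | h3
    · exact ih h.2 i h1 h3
    · rw [h3]; exact Nat.eq_of_beq_eq_true h.1

/-- the check for one pair -/
def boxChk (n h q : ℕ) : Bool :=
  decide ((q, n) ∈ L13) || Nat.ble (n * (3 * n + 1)) (q ^ h) ||
    boxForce (boxPP q (n - 1) (q ^ n - 1)) fun m =>
      Nat.beq ((q ^ n - 1) % m) 0 && boxCop q m (n - 1) && Nat.ble (3 * n + 1) m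

/-- the check for one exponent -/
def boxRow (n : ℕ) : Bool :=
  Nat.ble n 2 || boxForce (n.totient / 2) fun h =>
    Nat.ble (n * (3 * n + 1)) (114 ^ h) && boxAll 114 fun q => Nat.ble q 1 || boxChk n h q

set_option maxRecDepth 100000 in
theorem box_table : boxAll 91 boxRow = true := by decide +kernel

theorem box {q n : ℕ} (hq : 2 ≤ q) (hn : 3 ≤ n) (hn2 : n ≤ 90) (hex : (q, n) ∉ L13)
    (hlt : q ^ (n.totient / 2) < n * (3 * n + 1)) : ∃ m : ℕ, Prim q n m ∧ 3 * n + 1 ≤ m := by
  have h1 := boxAll_sound box_table n (by omega)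
  simp only [boxRow, boxForce_eq, Bool.or_eq_true, Bool.and_eq_true] at h1
  rcases h1 with h1 | ⟨h1, h2⟩
  · have := Nat.le_of_ble_eq_true h1
    omega
  · have h3 := Nat.le_of_ble_eq_true h1
    have hq2 : q < 114 := by
      by_contra hc
      have : 114 ^ (n.totient / 2) ≤ q ^ (n.totient / 2) := Nat.pow_le_pow_left (by omega) _
      omega
    have h4 := boxAll_sound h2 q hq2
    simp only [boxChk, boxForce_eq, Bool.or_eq_true, Bool.and_eq_true, decide_eq_true_eq] at h4
    rcases h4 with h4 | (h4 | h4) | ⟨⟨h4, h5⟩, h6⟩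
    · have := Nat.le_of_ble_eq_true h4
      omega
    · exact absurd h4 hex
    · have := Nat.le_of_ble_eq_true h4
      omega
    · refine ⟨_, ⟨Nat.dvd_of_mod_eq_zero (Nat.eq_of_beq_eq_true h4), ?_⟩, Nat.le_of_ble_eq_true h6⟩
      intro i hi1 hi2
      exact boxCop_sound h5 i hi1 (by omega)

end Cfsg.Agent.Lib.Helper93.ZS
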