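import Mathlib
import Cfsg.Agent.S2904
import Cfsg.Agent.S4422

set_option autoImplicit false

/-! Ladder ZS (S3430 + S4423): definitions. -/

namespace Cfsg.Agent.Lib.Helper93.ZS

/-- `m` is a primitive divisor of `q ^ n - 1` -/
def Prim (q n m : ℕ) : Prop :=
  m ∣ q ^ n - 1 ∧ ∀ i : ℕ, 1 ≤ i → i < n → Nat.Coprime m (q ^ i - 1)

/-- the thirteen exceptional pairs -/
def L13 : List (ℕ × ℕ) :=
  [(2, 6), (2, 4), (2, 10), (2, 12), (2, 18), (3, 4), (3, 6), (5, 6), (2, 3), (2, 8), (2, 20),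
    (4, 3), (4, 6)]

end Cfsg.Agent.Lib.Helper93.ZS
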