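import Cfsg.Agent.Lib.Helper93.ZS.Defs

set_option autoImplicit false

/-! Ladder ZS (S3430 + S4423), rung FIVE. -/

namespace Cfsg.Agent.Lib.Helper93.ZS

theorem five {q n : ℕ} (h : (q, n) ∈ [(2, 3), (2, 8), (2, 20), (4, 3), (4, 6)]) :
    ∃ p : ℕ, p.Prime ∧ p ∣ q ^ n - 1 ∧ (∀ i : ℕ, 1 ≤ i → i < n → ¬ p ∣ q ^ i - 1) ∧
      (n + 1 < p ∨ p ^ 2 ∣ q ^ n - 1) := by
  simp only [List.mem_cons, Prod.mk.injEq, List.mem_nil_iff, or_false] at h
  rcases h with ⟨rfl, rfl⟩ | ⟨rfl, rfl⟩ | ⟨rfl, rfl⟩ | ⟨rfl, rfl⟩ | ⟨rfl, rfl⟩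
  · refine ⟨7, by norm_num, by norm_num, ?_, Or.inl (by norm_num)⟩
    intro i h1 h2; interval_cases i <;> norm_num
  · refine ⟨17, by norm_num, by norm_num, ?_, Or.inl (by norm_num)⟩
    intro i h1 h2; interval_cases i <;> norm_num
  · refine ⟨41, by norm_num, by norm_num, ?_, Or.inl (by norm_num)⟩
    intro i h1 h2; interval_cases i <;> norm_num
  · refine ⟨7, by norm_num, by norm_num, ?_, Or.inl (by norm_num)⟩
    intro i h1 h2; interval_cases i <;> norm_num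
  · refine ⟨13, by norm_num, by norm_num, ?_, Or.inl (by norm_num)⟩
    intro i h1 h2; interval_cases i <;> norm_num

end Cfsg.Agent.Lib.Helper93.ZS
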