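import Cfsg.Agent.Lib.Helper93.ZS.Defs

set_option autoImplicit false

/-! Ladder ZS (S3430 + S4423), rung LARGE. -/

namespace Cfsg.Agent.Lib.Helper93.ZS

theorem large {q n m : ℕ} (hq : 2 ≤ q) (hn : 3 ≤ n) (hm : Prim q n m) (h3 : 3 * n + 1 ≤ m) :
    ∃ p : ℕ, p.Prime ∧ p ∣ q ^ n - 1 ∧ (∀ i : ℕ, 1 ≤ i → i < n → ¬ p ∣ q ^ i - 1) ∧
      (n + 1 < p ∨ p ^ 2 ∣ q ^ n - 1) := by
  have key : ∀ p : ℕ, p.Prime → p ∣ m → p ∣ q ^ n - 1 ∧
      (∀ i : ℕ, 1 ≤ i → i < n → ¬ p ∣ q ^ i - 1) ∧ n + 1 ≤ p := by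
    intro p hp hpm
    have h1 : p ∣ q ^ n - 1 := hpm.trans hm.1
    have h2 : ∀ i : ℕ, 1 ≤ i → i < n → Nat.Coprime p (q ^ i - 1) :=
      fun i hi1 hi2 => (hm.2 i hi1 hi2).coprime_dvd_left hpm
    refine ⟨h1, fun i hi1 hi2 hd => ?_, ?_⟩
    · have := h2 i hi1 hi2
      rw [hp.coprime_iff_not_dvd] at this
      exact this hd
    · have h4 := Cfsg.Agent.S4422.result q n p hq (by omega) h1 h2
      rw [Nat.mod_eq_of_lt (by omega : 1 < n)] at h4
      by_contra hlt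
      have h5 : p < n ∨ p = n := by omega
      rcases h5 with h5 | h5
      · rw [Nat.mod_eq_of_lt h5] at h4
        exact hp.one_lt.ne' h4
      · rw [h5, Nat.mod_self] at h4
        omega
  by_contra hcon
  push Not at hcon
  have hall : ∀ p : ℕ, p.Prime → p ∣ m → p = n + 1 ∧ ¬ p ^ 2 ∣ q ^ n - 1 := by
    intro p hp hpm
    obtain ⟨a, b, c⟩ := key p hp hpm
    have := hcon p hp a b
    exact ⟨by omega, this.2⟩
  obtain ⟨p, hp, hpm⟩ := Nat.exists_prime_and_dvd (show m ≠ 1 by omega)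
  have hpe := (hall p hp hpm).1
  have hm0 : m ≠ 0 := by omega
  have hpow : m = p ^ m.primeFactorsList.length :=
    Nat.eq_prime_pow_of_unique_prime_dvd hm0 (fun {d} hd hdm => by rw [(hall d hd hdm).1, hpe])
  rcases Nat.lt_or_ge m.primeFactorsList.length 2 with hk | hk
  · have h6 : m ≤ p := by
      calc m = p ^ m.primeFactorsList.length := hpow
        _ ≤ p ^ 1 := Nat.pow_le_pow_right hp.pos (by omega)
        _ = p := pow_one p
    omega
  · apply (hall p hp hpm).2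
    refine Dvd.dvd.trans ?_ hm.1
    calc p ^ 2 ∣ p ^ m.primeFactorsList.length := pow_dvd_pow p hk
      _ = m := hpow.symm

end Cfsg.Agent.Lib.Helper93.ZS
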