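import Cfsg.Agent.Lib.Helper93.ZS.Defs

set_option autoImplicit false

/-! Ladder ZS (S3430 + S4423), rung LOW. -/

namespace Cfsg.Agent.Lib.Helper93.ZS

open Cfsg.Agent.S2904 Polynomial

theorem low_key {q l : ℕ} (hq : 2 ≤ q) (hl : 3 ≤ l) :
    q ^ (l - 1) * (q + 1) ^ 2 < (q ^ l - 1) ^ 2 := by
  obtain ⟨j, rfl⟩ : ∃ j, l = j + 3 := ⟨l - 3, by omega⟩
  have hy : 1 ≤ q ^ j := Nat.one_le_pow _ _ (by omega)
  have h1 : q ^ (j + 3) = q ^ j * q ^ 3 := pow_add q j 3
  have h2 : q ^ (j + 3 - 1) = q ^ j * q ^ 2 := by
    rw [show j + 3 - 1 = j + 2 by omega]; exact pow_add q j 2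
  rw [h1, h2]
  generalize q ^ j = y at hy
  have h3 : q ^ 2 + q + 2 ≤ q ^ 3 := by nlinarith
  have h4 : y * q * (q + 1) + 2 ≤ y * q ^ 3 := by
    calc y * q * (q + 1) + 2 ≤ y * q * (q + 1) + y * 2 := by omega
      _ = y * (q ^ 2 + q + 2) := by ring
      _ ≤ y * q ^ 3 := Nat.mul_le_mul_left _ h3
  have h5 : y * q * (q + 1) < y * q ^ 3 - 1 := by omega
  calc y * q ^ 2 * (q + 1) ^ 2 ≤ y * q ^ 2 * (q + 1) ^ 2 * y := Nat.le_mul_of_pos_right _ (by omega)
    _ = (y * q * (q + 1)) ^ 2 := by ring
    _ < (y * q ^ 3 - 1) ^ 2 := Nat.pow_lt_pow_left h5 (by norm_num)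

theorem low_cyc_two {x : ℕ} (hx : 1 < x) : cyc 2 x = x + 1 := by
  have h1 := cyc_cast_int 2 hx
  rw [cyclotomic_two] at h1
  simp only [eval_add, eval_X, eval_one] at h1
  exact_mod_cast h1

theorem low : ∀ {q n : ℕ}, 2 ≤ q → 3 ≤ n → q ^ n.totient < cyc n q ^ 2 := by
  intro q n
  induction n using Nat.strong_induction_on generalizing q with
  | _ n ih =>
    intro hq hn
    by_cases hsf : Squarefree n
    · -- an odd prime divisor
      have hex : ∃ l : ℕ, l.Prime ∧ l ∣ n ∧ l ≠ 2 := by
        by_contra hcon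
        push Not at hcon
        have hpow := Nat.eq_prime_pow_of_unique_prime_dvd (p := 2) (by omega : n ≠ 0)
          (fun {d} hd hdn => hcon d hd hdn)
        rcases Nat.lt_or_ge n.primeFactorsList.length 2 with hk | hk
        · have : n ≤ 2 ^ 1 := by
            calc n = 2 ^ n.primeFactorsList.length := hpow
              _ ≤ 2 ^ 1 := Nat.pow_le_pow_right (by norm_num) (by omega)
          omega
        · have h4 : 2 * 2 ∣ n := by
            calc 2 * 2 = 2 ^ 2 := by norm_num
              _ ∣ 2 ^ n.primeFactorsList.length := pow_dvd_pow 2 hk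
              _ = n := hpow.symm
          have := hsf 2 h4
          simp at this
      obtain ⟨l, hl, hln, hl2⟩ := hex
      have hl3 : 3 ≤ l := by
        have := hl.two_le
        omega
      obtain ⟨k, hk⟩ := hln
      have hk' : n = k * l := by rw [hk, mul_comm]
      have hlk : ¬ l ∣ k := by
        intro hd
        have h4 : l * l ∣ n := by rw [hk]; exact Nat.mul_dvd_mul_left l hd
        exact hl.not_isUnit (hsf l h4)
      have hk0 : 0 < k := by
        rcases Nat.eq_zero_or_pos k with h | h
        · rw [h] at hk; omega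
        · exact h
      have hcop : Nat.Coprime k l := ((Nat.Prime.coprime_iff_not_dvd hl).2 hlk).symm
      have htot : n.totient = k.totient * (l - 1) := by
        rw [hk', Nat.totient_mul hcop, Nat.totient_prime hl]
      have hf : 0 < k.totient := Nat.totient_pos.2 hk0
      have hql : 1 < q ^ l := Nat.one_lt_pow (by omega) (by omega)
      have e1 := cyc_mul_prime_of_not_dvd (a := q) hl hlk
      rw [← hk'] at e1
      have e2 := le_cyc k hql
      have e3 := cyc_le k (b := q) (by omega)
      have e4 : (q ^ l - 1) ^ k.totient ≤ cyc n q * (q + 1) ^ k.totient := by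
        calc (q ^ l - 1) ^ k.totient ≤ cyc k (q ^ l) := e2
          _ = cyc n q * cyc k q := e1
          _ ≤ cyc n q * (q + 1) ^ k.totient := Nat.mul_le_mul_left _ e3
      have e5 : (q ^ (l - 1) * (q + 1) ^ 2) ^ k.totient < ((q ^ l - 1) ^ 2) ^ k.totient :=
        Nat.pow_lt_pow_left (low_key hq hl3) hf.ne'
      have e6 : q ^ n.totient * ((q + 1) ^ k.totient) ^ 2 <
          cyc n q ^ 2 * ((q + 1) ^ k.totient) ^ 2 := by
        calc q ^ n.totient * ((q + 1) ^ k.totient) ^ 2
            = (q ^ (l - 1) * (q + 1) ^ 2) ^ k.totient := by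
              rw [htot, mul_pow, ← pow_mul, ← pow_mul, ← pow_mul, mul_comm k.totient (l - 1),
                mul_comm k.totient 2]
          _ < ((q ^ l - 1) ^ 2) ^ k.totient := e5
          _ = ((q ^ l - 1) ^ k.totient) ^ 2 := by rw [← pow_mul, ← pow_mul, mul_comm]
          _ ≤ (cyc n q * (q + 1) ^ k.totient) ^ 2 := Nat.pow_le_pow_left e4 2
          _ = cyc n q ^ 2 * ((q + 1) ^ k.totient) ^ 2 := mul_pow _ _ _
      exact Nat.lt_of_mul_lt_mul_right e6
    · rw [Nat.squarefree_iff_prime_squarefree] at hsf
      push Not at hsf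
      obtain ⟨r, hr, t, ht⟩ := hsf
      have hn' : n = (r * t) * r := by rw [ht]; ring
      have hrd : r ∣ r * t := Dvd.intro _ rfl
      have e1 := cyc_mul_prime_of_dvd (a := q) hr hrd
      rw [← hn'] at e1
      have htot : n.totient = r * (r * t).totient := by
        rw [hn', mul_comm (r * t) r, Nat.totient_mul_of_prime_of_dvd hr hrd]
      have hr2 := hr.two_le
      have ht0 : 0 < t := by
        rcases Nat.eq_zero_or_pos t with h | h
        · rw [h] at ht; omega
        · exact h
      have hqr : 2 ≤ q ^ r := by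
        calc 2 ≤ q := hq
          _ = q ^ 1 := (pow_one q).symm
          _ ≤ q ^ r := Nat.pow_le_pow_right (by omega) (by omega)
      rcases Nat.lt_or_ge (r * t) 3 with h3 | h3
      · -- n = 4
        have hr' : r = 2 := by
          by_contra hne
          have : 3 ≤ r := by omega
          have : 3 * 1 ≤ r * t := Nat.mul_le_mul this ht0
          omega
        subst hr'
        have ht1 : t = 1 := by omega
        subst ht1
        rw [e1, htot]
        simp only [mul_one]
        rw [low_cyc_two (by omega), Nat.totient_two, mul_one]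
        nlinarith
      · have hlt : r * t < n := by
          rw [hn']
          calc r * t = r * t * 1 := (mul_one _).symm
            _ < r * t * r := Nat.mul_lt_mul_of_pos_left (by omega) (by omega)
        have := ih (r * t) hlt hqr h3
        rw [e1, htot, pow_mul]
        exact this

end Cfsg.Agent.Lib.Helper93.ZS
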