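import Cfsg.Agent.Lib.Helper93.ZS.Defs

set_option autoImplicit false

/-! Ladder ZS (S3430 + S4423), rung N2. -/

namespace Cfsg.Agent.Lib.Helper93.ZS

theorem n2_smooth : ∀ N : ℕ, 1 ≤ N → (∀ p : ℕ, p.Prime → p ∣ N → p = 2 ∨ p = 3) →
    ∃ s t : ℕ, N = 2 ^ s * 3 ^ t := by
  intro N
  induction N using Nat.strong_induction_on with
  | _ N ih =>
    intro h1 hp
    rcases Nat.eq_or_lt_of_le h1 with h | h
    · exact ⟨0, 0, by simp [← h]⟩
    · have hpr := Nat.minFac_prime (show N ≠ 1 by omega)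
      obtain ⟨k, hk⟩ := Nat.minFac_dvd N
      have hk0 : 1 ≤ k := by
        rcases Nat.eq_zero_or_pos k with h0 | h0
        · rw [h0, mul_zero] at hk; omega
        · exact h0
      have hkN : k < N := by
        calc k = 1 * k := (one_mul k).symm
          _ < N.minFac * k := Nat.mul_lt_mul_of_pos_right hpr.one_lt hk0
          _ = N := hk.symm
      obtain ⟨s, t, hst⟩ := ih k hkN hk0 (fun p hp1 hp2 => hp p hp1 (hp2.trans ⟨N.minFac, hk.trans (mul_comm _ _)⟩))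
      rcases hp _ hpr (Nat.minFac_dvd N) with h2 | h2
      · exact ⟨s + 1, t, by rw [hk, h2, hst]; ring⟩
      · exact ⟨s, t + 1, by rw [hk, h2, hst]; ring⟩

theorem n2 {q : ℕ} (hq : 2 ≤ q) (h1 : ¬ ∃ s t : ℕ, t ≤ 1 ∧ q + 1 = 2 ^ s * 3 ^ t) :
    ∃ p : ℕ, p.Prime ∧ p ∣ q ^ 2 - 1 ∧ (∀ i : ℕ, 1 ≤ i → i < 2 → ¬ p ∣ q ^ i - 1) ∧
      (2 + 1 < p ∨ p ^ 2 ∣ q ^ 2 - 1) := by
  have hfac : q ^ 2 - 1 = (q + 1) * (q - 1) := by
    have := Nat.sq_sub_sq q 1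
    rwa [one_pow] at this
  have hnd : ∀ p : ℕ, 3 ≤ p → p ∣ q + 1 → ∀ i : ℕ, 1 ≤ i → i < 2 → ¬ p ∣ q ^ i - 1 := by
    intro p hp hd i hi1 hi2 hd2
    obtain rfl : i = 1 := by omega
    rw [pow_one] at hd2
    have h2 : p ∣ (q + 1) - (q - 1) := Nat.dvd_sub hd hd2
    have h3 : (q + 1) - (q - 1) = 2 := by omega
    rw [h3] at h2
    have := Nat.le_of_dvd (by norm_num) h2
    omega
  by_cases hex : ∃ p : ℕ, p.Prime ∧ p ∣ q + 1 ∧ p ≠ 2 ∧ p ≠ 3
  · obtain ⟨p, hp, hd, h2, h3⟩ := hex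
    have hp2 := hp.two_le
    have h4 : p ≠ 4 := by
      rintro rfl
      exact absurd hp (by norm_num)
    exact ⟨p, hp, by rw [hfac]; exact hd.mul_right _, hnd p (by omega) hd, Or.inl (by omega)⟩
  · push Not at hex
    obtain ⟨s, t, hst⟩ := n2_smooth (q + 1) (by omega) (fun p hp hd => by
      by_contra hc
      push Not at hc
      exact hc.2 (hex p hp hd hc.1))
    have ht : 2 ≤ t := by
      by_contra hc
      exact h1 ⟨s, t, by omega, hst⟩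
    have h9 : 3 ^ 2 ∣ q + 1 := by
      rw [hst]
      exact (pow_dvd_pow 3 ht).mul_left _
    have h3 : 3 ∣ q + 1 := (dvd_pow_self 3 (by norm_num)).trans h9
    exact ⟨3, by norm_num, by rw [hfac]; exact h3.mul_right _, hnd 3 le_rfl h3,
      Or.inr (by rw [hfac]; exact h9.mul_right _)⟩

end Cfsg.Agent.Lib.Helper93.ZS
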