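import Cfsg.Agent.Lib.Helper93.ZS.Defs

set_option autoImplicit false

/-! Ladder ZS (S3430 + S4423), rung PRIM. -/

namespace Cfsg.Agent.Lib.Helper93.ZS

open Cfsg.Agent.S2904 Polynomial

theorem prim {q n : ℕ} (hq : 2 ≤ q) (hn : 3 ≤ n) : ∃ m : ℕ, Prim q n m ∧ cyc n q ≤ n * m := by
  have ha : 1 < q := hq
  set N := cyc n q with hN
  have hNpos : 0 < N := by
    have h1 := le_cyc n ha
    have h2 : 0 < (q - 1) ^ n.totient := pow_pos (by omega) _
    omega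
  have hstruct : ∀ r : ℕ, r.Prime → r ∣ N → (∃ i, 1 ≤ i ∧ i < n ∧ r ∣ q ^ i - 1) →
      ∃ k m : ℕ, 1 ≤ k ∧ n = r ^ k * m ∧ ¬ r ∣ m ∧ 0 < m ∧
      m ∣ r - 1 ∧ IsPrimitiveRoot ((q : ℕ) : ZMod r) m := by
    intro r hr hrN hbad
    obtain ⟨k, m, hnk, hrm, hprim⟩ := exists_decomp (by omega) hr hrN
    have hm0 : 0 < m := by
      rcases Nat.eq_zero_or_pos m with h | h
      · subst h; simp at hnk; omega
      · exact h
    refine ⟨k, m, ?_, hnk, hrm, hm0, dvd_sub_one_of_primitive hr ha hm0 hprim, hprim⟩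
    obtain ⟨j, hj0, hjn, hj⟩ := hbad
    have hmj := (dvd_pow_sub_one_iff ha hprim j).mp hj
    by_contra hk
    have hk0 : k = 0 := by omega
    subst hk0
    simp only [pow_zero, one_mul] at hnk
    have := Nat.le_of_dvd hj0 hmj
    omega
  have huniq_aux : ∀ r r' : ℕ, r.Prime → r'.Prime → r ∣ N → r' ∣ N →
      (∃ i, 1 ≤ i ∧ i < n ∧ r ∣ q ^ i - 1) → (∃ i, 1 ≤ i ∧ i < n ∧ r' ∣ q ^ i - 1) → ¬ r < r' := by
    intro r r' hr hr' hrN hr'N hb hb' hlt
    obtain ⟨k, m, -, hnk, -, hm0, hmr, -⟩ := hstruct r hr hrN hb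
    obtain ⟨k', m', hk', hnk', -, -, -, -⟩ := hstruct r' hr' hr'N hb'
    have h1 : r' ∣ n := by
      rw [hnk']
      exact Dvd.dvd.mul_right (dvd_pow_self r' (by omega)) _
    rw [hnk] at h1
    rcases (Nat.Prime.dvd_mul hr').mp h1 with h | h
    · have := (Nat.prime_dvd_prime_iff_eq hr' hr).mp (hr'.dvd_of_dvd_pow h)
      omega
    · have h3 := Nat.le_of_dvd (by have := hr.two_le; omega) (h.trans hmr)
      omega
  have hnsq : ∀ r : ℕ, r.Prime → r ∣ N → (∃ i, 1 ≤ i ∧ i < n ∧ r ∣ q ^ i - 1) →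
      r ∣ n ∧ ¬ r ^ 2 ∣ N := by
    intro r hr hrN hb
    obtain ⟨k, m, hk, hnk, hrm, hm0, hmr, hprim⟩ := hstruct r hr hrN hb
    have hrn : r ∣ n := by
      rw [hnk]; exact Dvd.dvd.mul_right (dvd_pow_self r (by omega)) _
    refine ⟨hrn, ?_⟩
    rcases hr.eq_two_or_odd' with hr2 | hodd
    · subst hr2
      have hm1 : m = 1 := Nat.dvd_one.mp (by simpa using hmr)
      subst hm1
      obtain ⟨k', rfl⟩ : ∃ k', k = k' + 1 := ⟨k - 1, by omega⟩
      have hNval : N = q ^ 2 ^ k' + 1 := by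
        have h1 : (cyclotomic n ℤ).eval (q : ℤ) = (q : ℤ) ^ 2 ^ k' + 1 := by
          rw [hnk, mul_one, cyclotomic_prime_pow_eq_geom_sum Nat.prime_two]
          simp [Finset.sum_range_succ, add_comm]
        have h3 := cyc_cast_int n ha
        rw [h1] at h3
        exact_mod_cast h3
      rcases Nat.eq_zero_or_pos k' with hk0 | hk0
      · subst hk0
        simp at hnk
        omega
      · obtain ⟨k'', rfl⟩ : ∃ k'', k' = k'' + 1 := ⟨k' - 1, by omega⟩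
        have h3 : q ^ 2 ^ (k'' + 1) = (q ^ 2 ^ k'') ^ 2 := by
          rw [← pow_mul, pow_succ]
        rw [h3] at hNval
        rw [hNval]
        exact not_four_dvd_sq_add_one (q ^ 2 ^ k'')
    · obtain ⟨k', rfl⟩ : ∃ k', k = k' + 1 := ⟨k - 1, by omega⟩
      have hndiv : n / r = r ^ k' * m := by
        rw [hnk, pow_succ, mul_assoc, mul_comm r m, ← mul_assoc]
        exact Nat.mul_div_cancel _ hr.pos
      have h3 : r ∣ q ^ (n / r) - 1 := by
        rw [dvd_pow_sub_one_iff ha hprim, hndiv]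
        exact Dvd.intro_left _ rfl
      exact not_sq_dvd_cyc ha hr hodd (by omega) hrn h3
  by_cases hbad : ∃ r : ℕ, r.Prime ∧ r ∣ N ∧ ∃ i, 1 ≤ i ∧ i < n ∧ r ∣ q ^ i - 1
  · obtain ⟨r, hr, hrN, hb⟩ := hbad
    obtain ⟨hrn, hsq⟩ := hnsq r hr hrN hb
    obtain ⟨m, hm⟩ := hrN
    refine ⟨m, ⟨(Dvd.intro_left r hm.symm).trans (cyc_dvd ha), ?_⟩, ?_⟩
    · intro i hi1 hi2
      apply Nat.coprime_of_dvd
      intro s hs hsm hsq'
      have hsN : s ∣ N := by rw [hm]; exact hsm.mul_left r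
      have hb' : ∃ i, 1 ≤ i ∧ i < n ∧ s ∣ q ^ i - 1 := ⟨i, hi1, hi2, hsq'⟩
      have hrN' : r ∣ N := ⟨m, hm⟩
      have h1 := huniq_aux s r hs hr hsN hrN' hb' hb
      have h2 := huniq_aux r s hr hs hrN' hsN hb hb'
      have h3 : s = r := by omega
      subst h3
      apply hsq
      rw [hm, sq]
      exact Nat.mul_dvd_mul_left s hsm
    · rw [hm]
      exact Nat.mul_le_mul_right m (Nat.le_of_dvd (by omega) hrn)
  · refine ⟨N, ⟨cyc_dvd ha, ?_⟩, Nat.le_mul_of_pos_left N (by omega)⟩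
    intro i hi1 hi2
    apply Nat.coprime_of_dvd
    intro s hs hsN hsq'
    exact hbad ⟨s, hs, hsN, i, hi1, hi2, hsq'⟩

end Cfsg.Agent.Lib.Helper93.ZS
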