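import Cfsg.Agent.Lib.Helper93.ZS.Defs

set_option autoImplicit false

/-! Ladder ZS (S3430 + S4423), rung UP13. -/

namespace Cfsg.Agent.Lib.Helper93.ZS

theorem up13_aux {m N A B C : ℕ} (hN : m ∣ N) (hNAB : N = B * A) (hAC : A ∣ C)
    (hC : Nat.Coprime m C) (hB : 0 < B) : m ≤ B :=
  Nat.le_of_dvd hB ((hC.coprime_dvd_right hAC).dvd_of_dvd_mul_right (hNAB ▸ hN))

theorem up13 {q n m : ℕ} (hex : (q, n) ∈ L13) (hm : Prim q n m) : m ≤ 2 * n + 1 := by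
  simp only [L13, List.mem_cons, Prod.mk.injEq, List.mem_nil_iff, or_false] at hex
  rcases hex with ⟨rfl, rfl⟩ | ⟨rfl, rfl⟩ | ⟨rfl, rfl⟩ | ⟨rfl, rfl⟩ | ⟨rfl, rfl⟩ | ⟨rfl, rfl⟩ | ⟨rfl, rfl⟩ | ⟨rfl, rfl⟩ | ⟨rfl, rfl⟩ | ⟨rfl, rfl⟩ | ⟨rfl, rfl⟩ | ⟨rfl, rfl⟩ | ⟨rfl, rfl⟩
  · exact (up13_aux (N := 2 ^ 6 - 1) (A := 63) (B := 1) (C := ((2 ^ 3 - 1) * (2 ^ 2 - 1)) ^ 2) hm.1 (by norm_num)
      (by norm_num) (Nat.Coprime.pow_right 2 (Nat.Coprime.mul_right (hm.2 3 (by norm_num) (by norm_num)) (hm.2 2 (by norm_num) (by norm_num)))) (by norm_num)).trans (by norm_num)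
  · exact (up13_aux (N := 2 ^ 4 - 1) (A := 3) (B := 5) (C := ((2 ^ 2 - 1)) ^ 1) hm.1 (by norm_num)
      (by norm_num) (Nat.Coprime.pow_right 1 (hm.2 2 (by norm_num) (by norm_num))) (by norm_num)).trans (by norm_num)
  · exact (up13_aux (N := 2 ^ 10 - 1) (A := 93) (B := 11) (C := ((2 ^ 5 - 1) * (2 ^ 2 - 1)) ^ 1) hm.1 (by norm_num)
      (by norm_num) (Nat.Coprime.pow_right 1 (Nat.Coprime.mul_right (hm.2 5 (by norm_num) (by norm_num)) (hm.2 2 (by norm_num) (by norm_num)))) (by norm_num)).trans (by norm_num)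
  · exact (up13_aux (N := 2 ^ 12 - 1) (A := 315) (B := 13) (C := ((2 ^ 6 - 1) * (2 ^ 4 - 1)) ^ 1) hm.1 (by norm_num)
      (by norm_num) (Nat.Coprime.pow_right 1 (Nat.Coprime.mul_right (hm.2 6 (by norm_num) (by norm_num)) (hm.2 4 (by norm_num) (by norm_num)))) (by norm_num)).trans (by norm_num)
  · exact (up13_aux (N := 2 ^ 18 - 1) (A := 13797) (B := 19) (C := ((2 ^ 9 - 1) * (2 ^ 6 - 1)) ^ 2) hm.1 (by norm_num)
      (by norm_num) (Nat.Coprime.pow_right 2 (Nat.Coprime.mul_right (hm.2 9 (by norm_num) (by norm_num)) (hm.2 6 (by norm_num) (by norm_num)))) (by norm_num)).trans (by norm_num)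
  · exact (up13_aux (N := 3 ^ 4 - 1) (A := 16) (B := 5) (C := ((3 ^ 2 - 1)) ^ 2) hm.1 (by norm_num)
      (by norm_num) (Nat.Coprime.pow_right 2 (hm.2 2 (by norm_num) (by norm_num))) (by norm_num)).trans (by norm_num)
  · exact (up13_aux (N := 3 ^ 6 - 1) (A := 104) (B := 7) (C := ((3 ^ 3 - 1) * (3 ^ 2 - 1)) ^ 1) hm.1 (by norm_num)
      (by norm_num) (Nat.Coprime.pow_right 1 (Nat.Coprime.mul_right (hm.2 3 (by norm_num) (by norm_num)) (hm.2 2 (by norm_num) (by norm_num)))) (by norm_num)).trans (by norm_num)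
  · exact (up13_aux (N := 5 ^ 6 - 1) (A := 2232) (B := 7) (C := ((5 ^ 3 - 1) * (5 ^ 2 - 1)) ^ 2) hm.1 (by norm_num)
      (by norm_num) (Nat.Coprime.pow_right 2 (Nat.Coprime.mul_right (hm.2 3 (by norm_num) (by norm_num)) (hm.2 2 (by norm_num) (by norm_num)))) (by norm_num)).trans (by norm_num)
  · exact (up13_aux (N := 2 ^ 3 - 1) (A := 1) (B := 7) (C := ((2 ^ 1 - 1)) ^ 1) hm.1 (by norm_num)
      (by norm_num) (Nat.Coprime.pow_right 1 (hm.2 1 (by norm_num) (by norm_num))) (by norm_num)).trans (by norm_num)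
  · exact (up13_aux (N := 2 ^ 8 - 1) (A := 15) (B := 17) (C := ((2 ^ 4 - 1)) ^ 1) hm.1 (by norm_num)
      (by norm_num) (Nat.Coprime.pow_right 1 (hm.2 4 (by norm_num) (by norm_num))) (by norm_num)).trans (by norm_num)
  · exact (up13_aux (N := 2 ^ 20 - 1) (A := 25575) (B := 41) (C := ((2 ^ 10 - 1) * (2 ^ 4 - 1)) ^ 2) hm.1 (by norm_num)
      (by norm_num) (Nat.Coprime.pow_right 2 (Nat.Coprime.mul_right (hm.2 10 (by norm_num) (by norm_num)) (hm.2 4 (by norm_num) (by norm_num)))) (by norm_num)).trans (by norm_num)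
  · exact (up13_aux (N := 4 ^ 3 - 1) (A := 9) (B := 7) (C := ((4 ^ 1 - 1)) ^ 2) hm.1 (by norm_num)
      (by norm_num) (Nat.Coprime.pow_right 2 (hm.2 1 (by norm_num) (by norm_num))) (by norm_num)).trans (by norm_num)
  · exact (up13_aux (N := 4 ^ 6 - 1) (A := 315) (B := 13) (C := ((4 ^ 3 - 1) * (4 ^ 2 - 1)) ^ 1) hm.1 (by norm_num)
      (by norm_num) (Nat.Coprime.pow_right 1 (Nat.Coprime.mul_right (hm.2 3 (by norm_num) (by norm_num)) (hm.2 2 (by norm_num) (by norm_num)))) (by norm_num)).trans (by norm_num)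

end Cfsg.Agent.Lib.Helper93.ZS
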