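import Cfsg.Agent.Lib.Helper93.ZS.LOW
import Cfsg.Agent.Lib.Helper93.ZS.PRIM
import Cfsg.Agent.Lib.Helper93.ZS.BIG
import Cfsg.Agent.Lib.Helper93.ZS.BOX
import Cfsg.Agent.Lib.Helper93.ZS.UP13
import Cfsg.Agent.Lib.Helper93.ZS.N2
import Cfsg.Agent.Lib.Helper93.ZS.FIVE
import Cfsg.Agent.Lib.Helper93.ZS.LARGE

set_option autoImplicit false

/-! Ladder ZS (S3430 + S4423): assembly. -/

namespace Cfsg.Agent.Lib.Helper93.ZS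

open Cfsg.Agent.S2904

/-- the primitive part of `q ^ n - 1` is at least `3 n + 1` outside the thirteen pairs -/
theorem main {q n : ℕ} (hq : 2 ≤ q) (hn : 3 ≤ n) (hex : (q, n) ∉ L13) :
    ∃ m : ℕ, Prim q n m ∧ 3 * n + 1 ≤ m := by
  by_cases hA : n * (3 * n + 1) ≤ q ^ (n.totient / 2)
  · obtain ⟨m, hm, hc⟩ := prim hq hn
    refine ⟨m, hm, ?_⟩
    have h1 := low hq hn
    have h2 : (q ^ (n.totient / 2)) ^ 2 ≤ q ^ n.totient := by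
      rw [← pow_mul]
      exact Nat.pow_le_pow_right (by omega) (by omega)
    have h3 : (n * (3 * n + 1)) ^ 2 < (n * m) ^ 2 :=
      calc (n * (3 * n + 1)) ^ 2 ≤ (q ^ (n.totient / 2)) ^ 2 := Nat.pow_le_pow_left hA 2
        _ ≤ q ^ n.totient := h2
        _ < cyc n q ^ 2 := h1
        _ ≤ (n * m) ^ 2 := Nat.pow_le_pow_left hc 2
    have h4 : n * (3 * n + 1) < n * m := lt_of_pow_lt_pow_left₀ 2 (Nat.zero_le _) h3
    exact (Nat.lt_of_mul_lt_mul_left h4).le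
  · by_cases hn2 : n ≤ 90
    · exact box hq hn hn2 hex (not_le.1 hA)
    · exfalso
      apply hA
      calc n * (3 * n + 1) ≤ 2 ^ (n.totient / 2) := big (by omega)
        _ ≤ q ^ (n.totient / 2) := Nat.pow_le_pow_left hq _

theorem s4423 (q e : ℕ) (hq : IsPrimePow q) (he : 3 ≤ e) :
    ((q, e) ∉ [(2, 6), (2, 4), (2, 10), (2, 12), (2, 18), (3, 4), (3, 6), (5, 6), (2, 3), (2, 8), (2, 20), (4, 3), (4, 6)] →
      ∃ m : ℕ, m ∣ q ^ e - 1 ∧ (∀ i : ℕ, 1 ≤ i → i < e → Nat.Coprime m (q ^ i - 1)) ∧ 3 * e + 1 ≤ m) ∧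
    ((q, e) ∈ [(2, 6), (2, 4), (2, 10), (2, 12), (2, 18), (3, 4), (3, 6), (5, 6), (2, 3), (2, 8), (2, 20), (4, 3), (4, 6)] →
      ∀ m : ℕ, m ∣ q ^ e - 1 → (∀ i : ℕ, 1 ≤ i → i < e → Nat.Coprime m (q ^ i - 1)) → m ≤ 2 * e + 1) := by
  constructor
  · intro h
    obtain ⟨m, hm, h3⟩ := main hq.two_le he h
    exact ⟨m, hm.1, hm.2, h3⟩
  · intro h m h1 h2
    exact up13 h ⟨h1, h2⟩

theorem s3430 (q n : ℕ) (hq : 2 ≤ q) (hn : 2 ≤ n)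
    (h1 : ¬ (n = 2 ∧ ∃ s t : ℕ, t ≤ 1 ∧ q + 1 = 2 ^ s * 3 ^ t))
    (h2 : ¬ (q = 2 ∧ (n = 4 ∨ n = 6 ∨ n = 10 ∨ n = 12 ∨ n = 18)))
    (h3 : ¬ (q = 3 ∧ (n = 4 ∨ n = 6))) (h4 : ¬ (q = 5 ∧ n = 6)) :
    ∃ p : ℕ, p.Prime ∧ p ∣ q ^ n - 1 ∧ (∀ i : ℕ, 1 ≤ i → i < n → ¬ p ∣ q ^ i - 1) ∧ (n + 1 < p ∨ p ^ 2 ∣ q ^ n - 1) := by
  rcases Nat.lt_or_ge n 3 with h | h
  · obtain rfl : n = 2 := by omega
    exact n2 hq (fun hh => h1 ⟨rfl, hh⟩)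
  · by_cases hex : (q, n) ∈ L13
    · apply five
      simp only [L13, List.mem_cons, Prod.mk.injEq, List.mem_nil_iff, or_false] at hex ⊢
      omega
    · obtain ⟨m, hm, h3⟩ := main hq h hex
      exact large hq h hm h3

end Cfsg.Agent.Lib.Helper93.ZS
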