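import Cfsg.Agent.Lib.Helper93.ZS.Defs

set_option autoImplicit false

/-! Ladder ZS (S3430 + S4423), rung TOT. -/

namespace Cfsg.Agent.Lib.Helper93.ZS

theorem tot_odd (n : ℕ) : Odd n → n ≤ n.totient ^ 2 := by
  induction n using Nat.recOnPosPrimePosCoprime with
  | prime_pow p k hp hk =>
    intro hodd
    have hp3 : 3 ≤ p := by
      have h2 := hp.two_le
      rcases Nat.eq_or_lt_of_le h2 with h | h
      · exfalso
        rw [← h] at hodd
        have : Even (2 ^ k) := (Nat.even_pow.2 ⟨even_two, hk.ne'⟩)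
        exact (Nat.not_even_iff_odd.2 hodd) this
      · exact h
    rw [Nat.totient_prime_pow hp hk]
    obtain ⟨j, rfl⟩ : ∃ j, k = j + 1 := ⟨k - 1, by omega⟩
    obtain ⟨r, rfl⟩ : ∃ r, p = r + 1 := ⟨p - 1, by omega⟩
    simp only [Nat.add_sub_cancel]
    have h1 : r + 1 ≤ r ^ 2 := by nlinarith
    have h2 : 1 ≤ (r + 1) ^ j := Nat.one_le_pow _ _ (by omega)
    calc (r + 1) ^ (j + 1) = (r + 1) ^ j * (r + 1) := pow_succ _ _
      _ ≤ (r + 1) ^ j * r ^ 2 := Nat.mul_le_mul_left _ h1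
      _ ≤ ((r + 1) ^ j * (r + 1) ^ j) * r ^ 2 :=
        Nat.mul_le_mul_right _ (Nat.le_mul_of_pos_right _ (by omega))
      _ = ((r + 1) ^ j * r) ^ 2 := by ring
  | zero => intro _; simp
  | one => intro _; simp
  | coprime a b ha hb hab iha ihb =>
    intro hodd
    rw [Nat.odd_mul] at hodd
    rw [Nat.totient_mul hab, mul_pow]
    exact Nat.mul_le_mul (iha hodd.1) (ihb hodd.2)

theorem tot (n : ℕ) : n ≤ 2 * n.totient ^ 2 := by
  rcases Nat.eq_zero_or_pos n with h0 | h0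
  · simp [h0]
  obtain ⟨a, m, hm, rfl⟩ := Nat.exists_eq_two_pow_mul_odd h0.ne'
  have hcop : Nat.Coprime (2 ^ a) m := Nat.Coprime.pow_left _ (Nat.coprime_two_left.2 hm)
  rw [Nat.totient_mul hcop, mul_pow]
  have h1 := tot_odd m hm
  rcases Nat.eq_zero_or_pos a with ha | ha
  · subst ha
    simp only [pow_zero, one_mul, Nat.totient_one, one_pow]
    omega
  · rw [Nat.totient_prime_pow Nat.prime_two ha]
    obtain ⟨j, rfl⟩ : ∃ j, a = j + 1 := ⟨a - 1, by omega⟩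
    simp only [Nat.add_sub_cancel]
    have h2 : 1 ≤ 2 ^ j := Nat.one_le_pow _ _ (by omega)
    calc 2 ^ (j + 1) * m = 2 * (2 ^ j * m) := by ring
      _ ≤ 2 * ((2 ^ j * 2 ^ j) * m.totient ^ 2) :=
        Nat.mul_le_mul_left _ (Nat.mul_le_mul (Nat.le_mul_of_pos_right _ (by omega)) h1)
      _ = 2 * ((2 ^ j * (2 - 1)) ^ 2 * m.totient ^ 2) := by
        rw [show (2 - 1 : ℕ) = 1 from rfl, mul_one, sq (2 ^ j)]

end Cfsg.Agent.Lib.Helper93.ZS
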